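import Cfsg.Agent.H585.BD.Card
import Cfsg.Agent.H183.OutPSL
import Cfsg.Agent.H152.Dl.Rows
import Cfsg.Agent.S2086
import Cfsg.Agent.S2087
import Cfsg.Agent.H487.SchurMult
import Cfsg.Agent.S0243

/-!
# `PSL_n(q)` at its own characteristic, part I: outer automorphisms, `n = 2, 3` (S4932 / S4953, helper872)

* `outAb_psl` : commutators of `r`-groups of automorphisms of `PSL_n(q)` are inner;
* `tame_psl_two` : `PSL_2(q)`; `tame_psl_three` : `PSL_3(q)`, `q ≠ 2, 4`; `tame_psl_three_two` : `PSL_3(2)`.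
-/

set_option autoImplicit false
set_option linter.unusedSectionVars false

namespace Cfsg.Agent.H872.BD

open Cfsg Matrix Cfsg.Agent.H589.BD Cfsg.Agent.H585.BD Cfsg.Agent.H246.Dl

universe u v w

/-- A homomorphism of `Out S` to a commutative group with kernel of order prime to `p`. -/
theorem outAb_of_ker {p : ℕ} [hp : Fact p.Prime] {S : Type u} [Group S] {C : Type v} [CommGroup C] (φ : Out S →* C)
    (h : ¬ p ∣ Nat.card φ.ker) : OutAb p S := by
  refine outAb_of_hom (QuotientGroup.mk' (Inn S)) (fun a ha => (QuotientGroup.eq_one_iff a).1 ha) ?_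
  intro R hR x hx y hy
  have hc : x * y * x⁻¹ * y⁻¹ ∈ R := R.mul_mem (R.mul_mem (R.mul_mem hx hy) (R.inv_mem hx)) (R.inv_mem hy)
  have h2 : x * y * x⁻¹ * y⁻¹ ∈ φ.ker := by
    rw [MonoidHom.mem_ker, map_mul, map_mul, map_mul, map_inv, map_inv, mul_comm (φ x) (φ y), mul_inv_cancel_right,
      mul_inv_cancel]
  have h3 : x * y * x⁻¹ * y⁻¹ = 1 := by
    obtain ⟨k, hk⟩ := hR ⟨_, hc⟩
    have hk' : (x * y * x⁻¹ * y⁻¹) ^ p ^ k = 1 := by simpa using congrArg Subtype.val hk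
    obtain ⟨j, -, hj⟩ := (Nat.dvd_prime_pow hp.out).1 (orderOf_dvd_of_pow_eq_one hk')
    rcases Nat.eq_zero_or_pos j with h0 | h0
    · rw [h0, pow_zero, orderOf_eq_one_iff] at hj
      exact hj
    · exfalso
      apply h
      refine (dvd_pow_self p h0.ne').trans ?_
      rw [← hj, ← Subgroup.orderOf_mk _ h2]
      exact orderOf_dvd_natCard _
  rw [mul_inv_eq_one, mul_inv_eq_iff_eq_mul] at h3
  exact h3

section out

variable {F : Type} [Field F] [Fintype F] {r : ℕ} [hr : Fact r.Prime] [CharP F r]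

theorem card_eq_pow (F : Type) [Field F] [Fintype F] (r : ℕ) [CharP F r] :
    ∃ f : ℕ, 1 ≤ f ∧ Fintype.card F = r ^ f := by
  obtain ⟨k, -, hk⟩ := FiniteField.card F r
  exact ⟨k, k.pos, hk⟩

theorem not_dvd_gcd {q r f n : ℕ} (hr : r.Prime) (hf : 1 ≤ f) (hq : q = r ^ f) : ¬ r ∣ Nat.gcd n (q - 1) := by
  intro h
  have h1 : r ∣ q - 1 := h.trans (Nat.gcd_dvd_right _ _)
  have h2 : r ∣ q := by rw [hq]; exact dvd_pow_self r (by omega)
  have h3 : 1 ≤ q := by rw [hq]; exact Nat.one_le_pow _ _ hr.pos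
  have h4 := Nat.dvd_sub h2 h1
  rw [show q - (q - 1) = 1 by omega] at h4
  exact hr.one_lt.ne' (Nat.dvd_one.1 h4)

theorem outAb_psl {n : ℕ} (hn : 2 ≤ n) (h4 : n = 2 → 4 ≤ Fintype.card F) :
    OutAb r (ProjectiveSpecialLinearGroup (Fin n) F) := by
  obtain ⟨f, hf, hF⟩ := card_eq_pow F r
  rcases Nat.lt_or_ge n 3 with h3 | h3
  · obtain rfl : n = 2 := by omega
    obtain ⟨φ, -, -, hφ⟩ := Cfsg.Agent.H183.OutPSL.out_two (F := F) hf hF (by rw [← hF]; exact h4 rfl)
    refine outAb_of_ker φ ?_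
    rw [hφ]
    exact not_dvd_gcd hr.out hf rfl
  · obtain ⟨φ, -, -, hφ⟩ := Cfsg.Agent.H183.OutPSL.out_three (F := F) hf hF h3
    refine outAb_of_ker φ ?_
    rw [hφ]
    exact not_dvd_gcd hr.out hf rfl

/-- the order of `Out(PSL_n(q))`, `n ≥ 3` -/
theorem card_out {n f : ℕ} (hn : 3 ≤ n) (hf : 1 ≤ f) (hF : Fintype.card F = r ^ f) :
    Nat.card (Out (ProjectiveSpecialLinearGroup (Fin n) F)) = 2 * f * Nat.gcd n (Fintype.card F - 1) := by
  obtain ⟨φ, h1, -, hφ⟩ := Cfsg.Agent.H183.OutPSL.out_three (F := F) hf hF hn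
  have h2 := Subgroup.card_mul_index φ.ker
  rw [hφ, Subgroup.index_ker, MonoidHom.range_eq_top.2 h1, Subgroup.card_top] at h2
  rw [← h2, hF]
  have h3 : Nat.card (Multiplicative (ZMod f × ZMod 2)) = f * 2 := by
    rw [Nat.card_congr Multiplicative.toAdd, Nat.card_prod, Nat.card_zmod, Nat.card_zmod]
  rw [h3]
  ring

end out

section tame

variable {S : Type u} [Group S] [Finite S] [IsSimpleGroup S] {F : Type} [Field F] [Fintype F] {r : ℕ}
  [hr : Fact r.Prime] [CharP F r]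

/-- `PSL_2(q)` -/
theorem tame_psl_two (hna : ¬ IsMulCommutative S) (e : S ≃* ProjectiveSpecialLinearGroup (Fin 2) F)
    (h4 : 4 ≤ Fintype.card F) : Tame r S :=
  tame_one (center_simple hna) (DlLe.of_equiv e Cfsg.Agent.H152.Dl.dl_psl_two)
    (OutAb.congr e (outAb_psl le_rfl fun _ => h4))

/-- `PSL_3(q)`, `q ≠ 2, 4` -/
theorem tame_psl_three (hna : ¬ IsMulCommutative S) (e : S ≃* ProjectiveSpecialLinearGroup (Fin 3) F)
    (h2 : Fintype.card F ≠ 2) (h4 : Fintype.card F ≠ 4) : Tame r S := by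
  obtain ⟨f, hf, hF⟩ := card_eq_pow F r
  have h5 := Cfsg.Agent.S2086.result (F := F) rfl 3 (by norm_num) (by omega) (by
    simp only [Set.mem_insert_iff, Prod.mk.injEq, Set.mem_singleton_iff, not_or, not_and]
    exact ⟨by omega, by omega, fun _ => h2, fun _ => h4, by omega⟩)
  have h6 : HasCyclicSchurMultiplier S (Nat.gcd 3 (Fintype.card F - 1)) :=
    Cfsg.Agent.H487.HasSchurMultiplier.congr_left h5 e.symm
  refine tame_noCover (center_simple hna) (noCover_of_cyclic h6 (not_dvd_gcd hr.out hf hF)) ?_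
    (OutAb.congr e (outAb_psl (by norm_num) (by omega)))
  exact DlLe.of_equiv e ((Cfsg.Agent.H152.Dl.dl_PSL Cfsg.Agent.H152.Dl.linHyp 3).mono
    (Nat.clog_le_of_le_pow (by norm_num)))

/-- `PSL_3(2)` -/
theorem tame_psl_three_two (hna : ¬ IsMulCommutative S) (e : S ≃* ProjectiveSpecialLinearGroup (Fin 3) F)
    (h2 : Fintype.card F = 2) : Tame r S := by
  obtain ⟨f, hf, hF⟩ := card_eq_pow F r
  have hr2 : r = 2 := by
    have h3 : r ∣ 2 := by rw [← h2, hF]; exact dvd_pow_self r (by omega)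
    exact (Nat.prime_dvd_prime_iff_eq hr.out Nat.prime_two).1 h3
  subst hr2
  have h6 : HasCyclicSchurMultiplier S 2 :=
    Cfsg.Agent.H487.HasSchurMultiplier.congr_left (Cfsg.Agent.S2087.result (F := F) h2) e.symm
  have hfin : Finite (Multiplicative (ZMod 2)) := inferInstanceAs (Finite (ZMod 2))
  refine tame_two (center_simple hna) (covDl_two_of_mult h6 ?_) (OutAb.congr e (outAb_psl (by norm_num) (by omega)))
  have h7 := S0243.result (F := F) rfl 3 (by norm_num)
  rw [← Nat.card_congr e.toEquiv, h2] at h7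
  have h8 : Nat.card (Multiplicative (ZMod 2)) = 2 := Nat.card_zmod 2
  rw [h8]
  simp [Fin.prod_univ_succ] at h7
  omega

end tame

end Cfsg.Agent.H872.BD
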